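import Mathlib

/-!
# Rédei's argument: a function on `F_p` with few directions is affine
-/

set_option autoImplicit false

namespace Cfsg.Agent.Lib.Affine

open Polynomial

variable {p : ℕ} [hp : Fact p.Prime]

/-- Power sum of a bijection. -/
theorem sum_pow_inj (φ : ZMod p → ZMod p) (hφ : Function.Injective φ) {j : ℕ} (hj : j < p - 1) :
    ∑ x, φ x ^ j = 0 := by
  have hbij : Function.Bijective φ := Finite.injective_iff_bijective.mp hφ
  have h1 : ∑ x, φ x ^ j = ∑ x, x ^ j := hbij.sum_comp (fun y => y ^ j)
  rw [h1]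
  have := FiniteField.sum_pow_lt_card_sub_one (ZMod p) j (by rw [ZMod.card]; exact hj)
  exact this

/-- The power sum `∑ x ^ (p - 1)`. -/
theorem sum_pow_card_sub_one : ∑ x : ZMod p, x ^ (p - 1) = -1 := by
  classical
  have hp1 : p - 1 ≠ 0 := by
    have := hp.out.two_le
    omega
  have h : ∀ x : ZMod p, x ^ (p - 1) = 1 - (if x = 0 then 1 else 0) := by
    intro x
    by_cases hx : x = 0
    · rw [hx, zero_pow hp1]; simp
    · rw [ZMod.pow_card_sub_one_eq_one hx]; simp [hx]
  simp only [h, Finset.sum_sub_distrib]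
  simp

/-- Sum of the values of a polynomial of degree `≤ p - 1`. -/
theorem sum_eval_eq_neg_coeff (h : (ZMod p)[X]) (hd : h.natDegree ≤ p - 1) :
    ∑ x, h.eval x = - h.coeff (p - 1) := by
  have hpos := hp.out.two_le
  have h1 : ∀ x, h.eval x = ∑ i ∈ Finset.range p, h.coeff i * x ^ i := by
    intro x
    exact Polynomial.eval_eq_sum_range' (by omega) x
  simp only [h1]
  rw [Finset.sum_comm]
  simp only [← Finset.mul_sum]
  have hr : Finset.range p = Finset.range ((p - 1) + 1) := by
    rw [Nat.sub_add_cancel (by omega)]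
  rw [hr, Finset.sum_range_succ, sum_pow_card_sub_one]
  rw [Finset.sum_eq_zero, zero_add, mul_neg, mul_one]
  intro i hi
  rw [Finset.mem_range] at hi
  have := FiniteField.sum_pow_lt_card_sub_one (ZMod p) i (by rw [ZMod.card]; exact hi)
  rw [this, mul_zero]

/-- The vanishing of the mixed power sums. -/
theorem sum_mixed_eq_zero (f : ZMod p → ZMod p) (s : Finset (ZMod p))
    (hs : 2 * s.card ≤ p - 1)
    (hinj : ∀ d, d ∉ s → Function.Injective (fun x => f x - d * x)) {a b : ℕ}
    (hab : 2 * (a + b) ≤ p - 1) (hab1 : 1 ≤ a + b) :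
    ∑ x, f x ^ a * x ^ b = 0 := by
  classical
  have hp2 := hp.out.two_le
  set j := a + b with hj
  let c : ℕ → ZMod p := fun i => (-1) ^ i * (j.choose i : ZMod p) * ∑ x, f x ^ (j - i) * x ^ i
  let P : (ZMod p)[X] := ∑ i ∈ Finset.range (j + 1), C (c i) * X ^ i
  have heval : ∀ d, P.eval d = ∑ x, (f x - d * x) ^ j := by
    intro d
    simp only [P, eval_finset_sum, eval_mul, eval_C, eval_pow, eval_X, c]
    have h1 : ∀ x, (f x - d * x) ^ j = ∑ i ∈ Finset.range (j + 1),
        (-1) ^ i * (j.choose i : ZMod p) * (f x ^ (j - i) * x ^ i) * d ^ i := by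
      intro x
      rw [sub_eq_neg_add, add_pow]
      apply Finset.sum_congr rfl
      intro i _
      rw [neg_mul_eq_neg_mul, mul_pow, neg_pow d]
      ring
    simp only [h1]
    rw [Finset.sum_comm]
    apply Finset.sum_congr rfl
    intro i _
    rw [← Finset.sum_mul, ← Finset.mul_sum]
  have hzero : P = 0 := by
    apply Polynomial.eq_zero_of_natDegree_lt_card_of_eval_eq_zero' P (Finset.univ \ s)
    · intro d hd
      rw [heval]
      have hd' : d ∉ s := (Finset.mem_sdiff.mp hd).2
      exact sum_pow_inj _ (hinj d hd') (by omega)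
    · have hdeg : P.natDegree ≤ j := by
        apply Polynomial.natDegree_sum_le_of_forall_le
        intro i hi
        rw [Finset.mem_range] at hi
        exact (Polynomial.natDegree_C_mul_X_pow_le _ _).trans (by omega)
      have hcard : (Finset.univ \ s).card = p - s.card := by
        rw [Finset.card_sdiff_of_subset (Finset.subset_univ _), Finset.card_univ, ZMod.card]
      rw [hcard]
      omega
  have hcoeff : P.coeff b = c b := by
    simp only [P, Polynomial.finset_sum_coeff, Polynomial.coeff_C_mul, Polynomial.coeff_X_pow]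
    rw [Finset.sum_eq_single b]
    · simp
    · intro i _ hi
      rw [if_neg (Ne.symm hi), mul_zero]
    · intro h
      exact absurd (Finset.mem_range.mpr (by omega)) h
  rw [hzero, coeff_zero] at hcoeff
  have hc0 : (j.choose b : ZMod p) ≠ 0 := by
    rw [Ne, ZMod.natCast_eq_zero_iff]
    intro hd
    have hle : b ≤ j := by omega
    have h2 := Nat.choose_mul_factorial_mul_factorial hle
    have h3 : p ∣ j.factorial := by
      rw [← h2]
      exact Dvd.dvd.mul_right (Dvd.dvd.mul_right hd _) _
    have h4 := (hp.out.dvd_factorial).mp h3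
    omega
  have hsign : ((-1 : ZMod p) ^ b) ≠ 0 := pow_ne_zero _ (by simp)
  have h5 : (-1 : ZMod p) ^ b * (j.choose b : ZMod p) * ∑ x, f x ^ (j - b) * x ^ b = 0 :=
    hcoeff.symm
  have h6 := (mul_eq_zero.mp h5).resolve_left (mul_ne_zero hsign hc0)
  have hjb : j - b = a := by omega
  rw [hjb] at h6
  exact h6

/-- Rédei's argument. -/
theorem redei (h2 : p ≠ 2) (f : ZMod p → ZMod p) (s : Finset (ZMod p))
    (hs : 2 * s.card ≤ p - 1)
    (hinj : ∀ d, d ∉ s → Function.Injective (fun x => f x - d * x)) :
    ∃ α β : ZMod p, ∀ x, f x = α * x + β := by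
  classical
  have hp2 := hp.out.two_le
  have hodd : (p - 1) % 2 = 0 := by
    have := hp.out.eq_two_or_odd
    omega
  let g : (ZMod p)[X] := Lagrange.interpolate Finset.univ id f
  have hgeval : ∀ x, g.eval x = f x := fun x =>
    Lagrange.eval_interpolate_at_node (v := id) f (fun a _ b _ h => h) (Finset.mem_univ x)
  have hgdeg : g.natDegree ≤ p - 1 := by
    have h1 : g.degree < (Finset.univ : Finset (ZMod p)).card :=
      Lagrange.degree_interpolate_lt (v := id) f (fun a _ b _ h => h)
    rw [Finset.card_univ, ZMod.card] at h1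
    by_cases hg0 : g = 0
    · rw [hg0]; simp
    · rw [Polynomial.degree_eq_natDegree hg0] at h1
      have : g.natDegree < p := by exact_mod_cast h1
      omega
  by_cases hD : g.natDegree ≤ 1
  · have h1 := Polynomial.eq_X_add_C_of_natDegree_le_one hD
    refine ⟨g.coeff 1, g.coeff 0, fun x => ?_⟩
    rw [← hgeval x]
    conv_lhs => rw [h1]
    simp
  · exfalso
    push_neg at hD
    set D := g.natDegree with hDdef
    have hg0 : g ≠ 0 := by
      intro h0
      rw [hDdef, h0] at hD
      simp at hD
    set a := (p - 1) / D with ha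
    set b := (p - 1) % D with hb
    have hdiv : D * a + b = p - 1 := Nat.div_add_mod _ _
    have hbD : b < D := Nat.mod_lt _ (by omega)
    have ha1 : 1 ≤ a := Nat.div_pos hgdeg (by omega)
    have hbound : 2 * (a + b) ≤ p - 1 := by
      rcases Nat.lt_or_ge a 2 with h | h
      · have ha' : a = 1 := by omega
        rw [ha'] at hdiv
        omega
      · have hD3 : D = 2 ∨ 3 ≤ D := by omega
        rcases hD3 with hD2 | hD3
        · rw [hD2] at hdiv hbD
          omega
        · have : D * a ≥ D * 2 := Nat.mul_le_mul_left _ h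
          have h5 : D * a = (D - 2) * a + 2 * a := by
            rw [← Nat.add_mul]
            congr 1
            omega
          have h6 : (D - 2) * 2 ≤ (D - 2) * a := Nat.mul_le_mul_left _ h
          omega
    have hvan := sum_mixed_eq_zero f s hs hinj hbound (by omega)
    let h : (ZMod p)[X] := g ^ a * X ^ b
    have hdegh : h.natDegree = p - 1 := by
      simp only [h]
      rw [Polynomial.natDegree_mul (pow_ne_zero _ hg0) (pow_ne_zero _ X_ne_zero),
        Polynomial.natDegree_pow, Polynomial.natDegree_X_pow, ← hdiv, mul_comm a D]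
    have hsum := sum_eval_eq_neg_coeff h hdegh.le
    have h1 : ∑ x, h.eval x = ∑ x, f x ^ a * x ^ b := by
      apply Finset.sum_congr rfl
      intro x _
      simp [h, hgeval]
    rw [h1, hvan] at hsum
    have hne : h.coeff (p - 1) ≠ 0 := by
      rw [← hdegh]
      exact Polynomial.leadingCoeff_ne_zero.mpr (mul_ne_zero (pow_ne_zero _ hg0) (pow_ne_zero _ X_ne_zero))
    apply hne
    have : - h.coeff (p - 1) = 0 := hsum.symm
    exact neg_eq_zero.mp this

end Cfsg.Agent.Lib.Affine
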