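import Mathlib

/-!
Unipotent operators on finite dimensional vector spaces over `ZMod p`.
-/

set_option autoImplicit false

namespace Cfsg.Agent.Lib.Affine

open Polynomial

variable {p : ℕ} [Fact p.Prime] {V : Type*} [AddCommGroup V] [Module (ZMod p) V]
  [Module.Finite (ZMod p) V]

/-- If `c` has order a power of `p` then `c ^ (p ^ s) = 1` and the geometric sum vanishes as soon as
`p ^ s` exceeds the dimension. -/
theorem pow_and_geom_sum_eq_zero (c : Module.End (ZMod p) V) {r : ℕ} (hc : c ^ (p ^ r) = 1) {s : ℕ}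
    (hs : Module.finrank (ZMod p) V + 1 ≤ p ^ s) :
    c ^ (p ^ s) = 1 ∧ ∑ i ∈ Finset.range (p ^ s), c ^ i = 0 := by
  have hchar : ∀ n : ℕ, (X - 1 : (ZMod p)[X]) ^ (p ^ n) = X ^ (p ^ n) - 1 := by
    intro n
    rw [sub_pow_char_pow, one_pow]
  set T : Module.End (ZMod p) V := c - 1 with hT
  have haev : ∀ q : (ZMod p)[X], aeval c (X - 1 : (ZMod p)[X]) = T := by
    intro _
    simp [hT]
  have hTp : ∀ n : ℕ, T ^ (p ^ n) = c ^ (p ^ n) - 1 := by
    intro n
    have := congrArg (aeval c) (hchar n)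
    simpa [hT] using this
  have hnil : IsNilpotent T := ⟨p ^ r, by rw [hTp, hc, sub_self]⟩
  have hTm : T ^ (Module.finrank (ZMod p) V) = 0 := by
    have h1 := LinearMap.aeval_self_charpoly T
    rw [hnil.charpoly_eq_X_pow_finrank] at h1
    simpa using h1
  have hTk : ∀ k, Module.finrank (ZMod p) V ≤ k → T ^ k = 0 := by
    intro k hk
    obtain ⟨j, rfl⟩ := Nat.exists_eq_add_of_le hk
    rw [pow_add, hTm, zero_mul]
  constructor
  · have := hTp s
    rw [hTk _ (by omega)] at this
    exact (sub_eq_zero.mp this.symm)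
  · -- the polynomial identity
    have hpos : 0 < p ^ s := by omega
    have hpoly : (∑ i ∈ Finset.range (p ^ s), (X : (ZMod p)[X]) ^ i) = (X - 1) ^ (p ^ s - 1) := by
      have h1 : (X - 1 : (ZMod p)[X]) * ∑ i ∈ Finset.range (p ^ s), (X : (ZMod p)[X]) ^ i =
          (X - 1) * (X - 1) ^ (p ^ s - 1) := by
        rw [mul_geom_sum, ← pow_succ', Nat.sub_add_cancel hpos, hchar]
      exact mul_left_cancel₀ (X_sub_C_ne_zero (1 : ZMod p) |> fun h => by simpa using h) h1
    have h2 := congrArg (aeval c) hpoly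
    simp only [map_sum, map_pow, aeval_X, map_sub, map_one] at h2
    rw [h2]
    exact hTk _ (by omega)

end Cfsg.Agent.Lib.Affine
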